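import Mathlib
import Cfsg.Prelude.Def_Classical
import Cfsg.Prelude.Def_LieClassical
import Cfsg.Agent.Helper3.Unitary

/-!
Sylow 2-subgroup of `PSU 3 F 4` for a field `F` with 16 elements: an explicit
model group `HG F` of order 64, embedded in `SU 3 F 4`.
-/

set_option autoImplicit false

namespace Cfsg.Agent.Helper5.SU34

open Cfsg Matrix

section field

variable {F : Type*} [Field F] [Fintype F] [hF : Fact (Fintype.card F = 16)]

theorem two0 : (2 : F) = 0 := by
  have h : ((Fintype.card F : ℕ) : F) = 0 := Nat.cast_card_eq_zero F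
  rw [hF.out] at h
  have h' : (2 : F) ^ 4 = 0 := by
    have e : (2 : F) ^ 4 = ((16 : ℕ) : F) := by norm_num
    rw [e]; exact h
  exact (pow_eq_zero_iff (by norm_num)).mp h'

theorem p16 (x : F) : x ^ 16 = x := by
  have h := FiniteField.pow_card x
  rw [hF.out] at h
  exact h

theorem add4 (x y : F) : (x + y) ^ 4 = x ^ 4 + y ^ 4 := by
  have h2 : (2 : F) = 0 := two0
  linear_combination (2 * x ^ 3 * y + 3 * x ^ 2 * y ^ 2 + 2 * x * y ^ 3) * h2

theorem p44 (x : F) : (x ^ 4) ^ 4 = x := by
  rw [← pow_mul]; exact p16 x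

theorem b20 (b : F) : (b ^ 5) ^ 4 = b ^ 5 := by
  calc (b ^ 5) ^ 4 = b ^ 16 * b ^ 4 := by ring
    _ = b * b ^ 4 := by rw [p16]
    _ = b ^ 5 := by ring

/-- the trace map to the subfield with four elements -/
def tau : F →+ F where
  toFun x := x + x ^ 4
  map_zero' := by simp
  map_add' x y := by rw [add4]; ring

theorem tau_apply (x : F) : tau x = x + x ^ 4 := rfl

theorem tau_range_le : (tau (F := F)).range ≤ (tau (F := F)).ker := by
  rintro _ ⟨x, rfl⟩
  rw [AddMonoidHom.mem_ker, tau_apply, tau_apply, add4, p44]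
  have h2 : (2 : F) = 0 := two0
  linear_combination (x + x ^ 4) * h2

theorem card_ker_tau_le : Nat.card (tau (F := F)).ker ≤ 4 := by
  classical
  let p : Polynomial F := Polynomial.X ^ 4 + Polynomial.X
  have hdeg : p.natDegree = 4 := by
    simp only [p]
    compute_degree!
  have hp0 : p ≠ 0 := by
    intro h
    rw [h] at hdeg
    simp at hdeg
  have hsub : ∀ x : (tau (F := F)).ker, (x : F) ∈ p.roots.toFinset := by
    intro x
    have hx : (x : F) + (x : F) ^ 4 = 0 := x.2
    rw [Multiset.mem_toFinset, Polynomial.mem_roots hp0, Polynomial.IsRoot.def]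
    simp only [p, Polynomial.eval_add, Polynomial.eval_pow, Polynomial.eval_X]
    linear_combination hx
  have hinj : Function.Injective (fun x : (tau (F := F)).ker =>
      (⟨(x : F), hsub x⟩ : {y : F // y ∈ p.roots.toFinset})) := by
    intro x y hxy
    exact Subtype.ext (congrArg (fun z : {y : F // y ∈ p.roots.toFinset} => (z : F)) hxy)
  have h1 := Nat.card_le_card_of_injective _ hinj
  have h2 : Nat.card {y : F // y ∈ p.roots.toFinset} = p.roots.toFinset.card := by
    rw [Nat.card_eq_fintype_card, Fintype.card_coe]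
  have h3 : p.roots.toFinset.card ≤ p.roots.card := Multiset.toFinset_card_le _
  have h4 : p.roots.card ≤ p.natDegree := Polynomial.card_roots' p
  omega

theorem card_ker_range :
    Nat.card (tau (F := F)).ker = 4 ∧ (tau (F := F)).range = (tau (F := F)).ker := by
  have h1 := AddSubgroup.card_mul_index (tau (F := F)).ker
  rw [AddSubgroup.index_ker, Nat.card_eq_fintype_card (α := F), hF.out] at h1
  have h2 := card_ker_tau_le (F := F)
  have h3 : Nat.card (tau (F := F)).range ≤ Nat.card (tau (F := F)).ker :=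
    AddSubgroup.card_le_of_le tau_range_le
  have h4 : Nat.card (tau (F := F)).ker = 4 := by
    generalize Nat.card (tau (F := F)).ker = k at *
    generalize Nat.card (tau (F := F)).range = r at *
    interval_cases k <;> omega
  refine ⟨h4, AddSubgroup.eq_of_le_of_card_ge tau_range_le ?_⟩
  rw [h4] at h1 ⊢
  omega

theorem exists_omega : ∃ w : F, w + w ^ 4 = 1 := by
  have h1 : (1 : F) ∈ (tau (F := F)).ker := by
    rw [AddMonoidHom.mem_ker, tau_apply, one_pow]
    have h2 : (2 : F) = 0 := two0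
    linear_combination h2
  rw [← card_ker_range.2] at h1
  obtain ⟨w, hw⟩ := h1
  exact ⟨w, hw⟩

end field

section model

/-- the model group: pairs `(b, c)` with `c + c^4 = b^5` -/
@[ext] structure HG (F : Type*) [Field F] where
  b : F
  c : F
  rel : c + c ^ 4 = b ^ 5

variable {F : Type*} [Field F] [Fintype F] [hF : Fact (Fintype.card F = 16)]

instance instMulHG : Mul (HG F) :=
  ⟨fun x y => ⟨x.b + y.b, x.c + y.c + x.b ^ 4 * y.b, by
    have e1 : (x.c + y.c + x.b ^ 4 * y.b) ^ 4 = x.c ^ 4 + y.c ^ 4 + x.b * y.b ^ 4 := by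
      rw [add4, add4, mul_pow, p44]
    have e2 : (x.b + y.b) ^ 5 = (x.b ^ 4 + y.b ^ 4) * (x.b + y.b) := by
      rw [← add4]; ring
    rw [e1, e2]
    linear_combination x.rel + y.rel⟩⟩

instance instOneHG : One (HG F) := ⟨⟨0, 0, by simp⟩⟩

instance instInvHG : Inv (HG F) :=
  ⟨fun x => ⟨x.b, x.c + x.b ^ 5, by
    have h2 : (2 : F) = 0 := two0
    rw [add4, b20]
    linear_combination x.rel + x.b ^ 5 * h2⟩⟩

theorem mul_b (x y : HG F) : (x * y).b = x.b + y.b := rfl
theorem mul_c (x y : HG F) : (x * y).c = x.c + y.c + x.b ^ 4 * y.b := rfl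
omit [Fintype F] hF in
theorem one_b : (1 : HG F).b = 0 := rfl
omit [Fintype F] hF in
theorem one_c : (1 : HG F).c = 0 := rfl
theorem inv_b (x : HG F) : (x⁻¹).b = x.b := rfl
theorem inv_c (x : HG F) : (x⁻¹).c = x.c + x.b ^ 5 := rfl

instance instGroupHG : Group (HG F) :=
  Group.ofLeftAxioms
    (fun x y z => by
      ext
      · simp only [mul_b]; ring
      · simp only [mul_b, mul_c, add4]; ring)
    (fun x => by
      ext
      · simp only [mul_b, one_b, zero_add]
      · simp only [mul_c, one_b, one_c]; ring)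
    (fun x => by
      have h2 : (2 : F) = 0 := two0
      ext
      · simp only [mul_b, inv_b, one_b]
        linear_combination x.b * h2
      · simp only [mul_c, inv_b, inv_c, one_c]
        linear_combination (x.c + x.b ^ 5) * h2)

theorem gmul_b (x y : HG F) : (x * y).b = x.b + y.b := rfl
theorem gmul_c (x y : HG F) : (x * y).c = x.c + y.c + x.b ^ 4 * y.b := rfl
omit [Fintype F] hF in
theorem gone_b : (1 : HG F).b = 0 := rfl
omit [Fintype F] hF in
theorem gone_c : (1 : HG F).c = 0 := rfl
theorem ginv_b (x : HG F) : (x⁻¹).b = x.b := rfl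
theorem ginv_c (x : HG F) : (x⁻¹).c = x.c + x.b ^ 5 := rfl

/-- the centre of the model group -/
def ZG (F : Type*) [Field F] [Fintype F] [Fact (Fintype.card F = 16)] : Subgroup (HG F) where
  carrier := {x | x.b = 0}
  mul_mem' {x y} hx hy := by
    show (x * y).b = 0
    rw [gmul_b, show x.b = 0 from hx, show y.b = 0 from hy, add_zero]
  one_mem' := rfl
  inv_mem' {x} hx := hx

theorem mem_ZG (x : HG F) : x ∈ ZG F ↔ x.b = 0 := Iff.rfl

/-- lift of a field element to the model group -/
def lift (w : F) (hw : w + w ^ 4 = 1) (t : F) : HG F :=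
  ⟨t, w * t ^ 5, by rw [mul_pow, b20]; linear_combination t ^ 5 * hw⟩

theorem lift_b (w : F) (hw : w + w ^ 4 = 1) (t : F) : (lift w hw t).b = t := rfl
theorem lift_c (w : F) (hw : w + w ^ 4 = 1) (t : F) : (lift w hw t).c = w * t ^ 5 := rfl

/-- the model group is in bijection with `F × ker tau` -/
noncomputable def hgEquiv (w : F) (hw : w + w ^ 4 = 1) : HG F ≃ F × (tau (F := F)).ker where
  toFun x := (x.b, ⟨x.c + w * x.b ^ 5, by
    have h2 : (2 : F) = 0 := two0
    rw [AddMonoidHom.mem_ker, tau_apply, add4, mul_pow, b20]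
    linear_combination x.rel + x.b ^ 5 * hw + x.b ^ 5 * h2⟩)
  invFun p := ⟨p.1, p.2.1 + w * p.1 ^ 5, by
    have hk : (p.2 : F) + (p.2 : F) ^ 4 = 0 := p.2.2
    rw [add4, mul_pow, b20]
    linear_combination hk + p.1 ^ 5 * hw⟩
  left_inv x := by
    have h2 : (2 : F) = 0 := two0
    ext
    · rfl
    · show x.c + w * x.b ^ 5 + w * x.b ^ 5 = x.c
      linear_combination (w * x.b ^ 5) * h2
  right_inv p := by
    have h2 : (2 : F) = 0 := two0
    apply Prod.ext
    · rfl
    · apply Subtype.ext
      show (p.2 : F) + w * p.1 ^ 5 + w * p.1 ^ 5 = (p.2 : F)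
      linear_combination (w * p.1 ^ 5) * h2

theorem card_HG : Nat.card (HG F) = 64 := by
  obtain ⟨w, hw⟩ := exists_omega (F := F)
  rw [Nat.card_congr (hgEquiv w hw), Nat.card_prod, card_ker_range.1,
    Nat.card_eq_fintype_card, hF.out]

/-- the centre is in bijection with `ker tau` -/
noncomputable def zgEquiv : ZG F ≃ (tau (F := F)).ker where
  toFun x := ⟨x.1.c, by
    have h := x.1.rel
    have hb : x.1.b = 0 := x.2
    rw [AddMonoidHom.mem_ker, tau_apply, h, hb]
    simp⟩
  invFun k := ⟨⟨0, k.1, by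
    have hk : (k : F) + (k : F) ^ 4 = 0 := k.2
    rw [hk]; simp⟩, rfl⟩
  left_inv x := by
    have hb : x.1.b = 0 := x.2
    apply Subtype.ext
    ext
    · exact hb.symm
    · rfl
  right_inv k := rfl

theorem card_ZG : Nat.card (ZG F) = 4 := by
  rw [Nat.card_congr zgEquiv, card_ker_range.1]

theorem ZG_central (z : HG F) (hz : z ∈ ZG F) (g : HG F) : g * z = z * g := by
  have hb : z.b = 0 := hz
  ext
  · rw [gmul_b, gmul_b, add_comm]
  · rw [gmul_c, gmul_c, hb]; ring

theorem sq_mem_ZG (x : HG F) : x ^ 2 ∈ ZG F := by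
  have h2 : (2 : F) = 0 := two0
  rw [pow_two, mem_ZG, gmul_b]
  linear_combination x.b * h2

theorem mem_ZG_of_sq (x : HG F) (hx : x ^ 2 = 1) : x ∈ ZG F := by
  have h2 : (2 : F) = 0 := two0
  rw [pow_two] at hx
  have h := congrArg HG.c hx
  rw [gmul_c, gone_c] at h
  have h5 : x.b ^ 5 = 0 := by linear_combination h - x.c * h2
  exact (pow_eq_zero_iff (by norm_num)).mp h5

theorem mem_ZG_of_central (x : HG F) (hx : ∀ g : HG F, g * x = x * g) : x ∈ ZG F := by
  have h2 : (2 : F) = 0 := two0
  obtain ⟨w, hw⟩ := exists_omega (F := F)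
  have h1 := congrArg HG.c (hx (lift w hw 1))
  have h3 := congrArg HG.c (hx (lift w hw w))
  rw [gmul_c, gmul_c, lift_b, lift_c] at h1 h3
  rw [mem_ZG]
  have e1 : x.b ^ 4 = x.b := by linear_combination -h1
  rw [e1] at h3
  linear_combination (-x.b) * hw + h3 + (w * x.b) * h2

theorem ZG_sq (z : HG F) (hz : z ∈ ZG F) : z ^ 2 = 1 := by
  have h2 : (2 : F) = 0 := two0
  have hb : z.b = 0 := hz
  rw [pow_two]
  ext
  · rw [gmul_b, hb, gone_b, add_zero]
  · rw [gmul_c, hb, gone_c]
    linear_combination z.c * h2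

theorem ZG_comm (z : HG F) (hz : z ∈ ZG F) : ∃ a b : HG F, a * b = z * (b * a) := by
  have h2 : (2 : F) = 0 := two0
  obtain ⟨w, hw⟩ := exists_omega (F := F)
  have hb : z.b = 0 := hz
  have hk : z.c ∈ (tau (F := F)).ker := by
    have h := z.rel
    rw [AddMonoidHom.mem_ker, tau_apply, h, hb]; simp
  rw [← card_ker_range.2] at hk
  obtain ⟨t, ht⟩ := hk
  rw [tau_apply] at ht
  refine ⟨lift w hw t, lift w hw 1, ?_⟩
  ext
  · rw [gmul_b, gmul_b, gmul_b, lift_b, lift_b, hb]; ring
  · rw [gmul_c, gmul_c, gmul_c, gmul_b, lift_b, lift_b, lift_c, lift_c, hb]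
    linear_combination -ht + t * h2 + (-t + t ^ 4 - z.c) * h2

end model

section embed

variable {F : Type*} [Field F] [Fintype F] [hF : Fact (Fintype.card F = 16)]

/-- the matrix of a model group element -/
def Gm (b c : F) : Matrix (Fin 3) (Fin 3) F :=
  !![1 + c, c, b ^ 4; c, 1 + c, b ^ 4; b, b, 1]

theorem Gm_det (b c : F) : (Gm b c).det = 1 := by
  have h2 : (2 : F) = 0 := two0
  rw [Matrix.det_fin_three]
  simp [Gm]
  linear_combination (c - b ^ 5) * h2

omit [Fintype F] hF in
theorem Gm_one : Gm (0 : F) 0 = 1 := by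
  ext i j
  fin_cases i <;> fin_cases j <;> simp [Gm]

theorem Gm_mul (b c b' c' : F) :
    Gm b c * Gm b' c' = Gm (b + b') (c + c' + b ^ 4 * b') := by
  have h2 : (2 : F) = 0 := two0
  ext i j
  fin_cases i <;> fin_cases j <;>
    simp [Gm, Matrix.mul_apply, Fin.sum_univ_three, add4]
  · linear_combination (c * c') * h2
  · linear_combination (c * c') * h2
  · linear_combination (c * b' ^ 4) * h2
  · linear_combination (c * c') * h2
  · linear_combination (c * c') * h2
  · linear_combination (c * b' ^ 4) * h2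
  · linear_combination (b * c') * h2
  · linear_combination (b * c') * h2
  · linear_combination (b * b' ^ 4) * h2

theorem Gm_pres (b c : F) (h : c + c ^ 4 = b ^ 5) (u v : Fin 3 → F) :
    hermForm 3 F 4 (Gm b c *ᵥ u) (Gm b c *ᵥ v) = hermForm 3 F 4 u v := by
  have h2 : (2 : F) = 0 := two0
  have hb : (b ^ 4) ^ 4 = b := p44 b
  unfold hermForm
  simp [Fin.sum_univ_three, Gm, Matrix.mulVec, dotProduct, add4, mul_pow, hb]
  have hrel : c + c ^ 4 = b * b ^ 4 := by rw [h]; ring
  generalize c ^ 4 = c4 at hrel ⊢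
  generalize b ^ 4 = b4 at hrel ⊢
  generalize v 0 ^ 4 = w0
  generalize v 1 ^ 4 = w1
  generalize v 2 ^ 4 = w2
  generalize u 0 = u0
  generalize u 1 = u1
  generalize u 2 = u2
  linear_combination (u0 * w0 + u0 * w1 + u1 * w0 + u1 * w1) * hrel +
    ((u0 * w0 + u0 * w1 + u1 * w0 + u1 * w1) * (c * c4 + b * b4) + (u0 * w2 + u1 * w2) * (b + c * b)
      + (u2 * w0 + u2 * w1) * (b4 + b4 * c4) + u2 * w2 * (b * b4)) * h2

/-- the embedding of the model group in `SU 3 F 4` -/
def toSU : HG F →* SU 3 F 4 where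
  toFun x := ⟨⟨Gm x.b x.c, Gm_det x.b x.c⟩, fun u v => Gm_pres x.b x.c x.rel u v⟩
  map_one' := Subtype.ext (Subtype.ext Gm_one)
  map_mul' x y := Subtype.ext (Subtype.ext (Gm_mul x.b x.c y.b y.c).symm)

theorem toSU_injective : Function.Injective (toSU (F := F)) := by
  intro x y hxy
  have h : Gm x.b x.c = Gm y.b y.c := congrArg (fun s : SU 3 F 4 => s.1.1) hxy
  have h1 := congrFun (congrFun h 2) 0
  have h2 := congrFun (congrFun h 0) 1
  simp [Gm] at h1 h2
  exact HG.ext h1 h2

end embed

section abstract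

open scoped commutatorElement

/-- the hypotheses describing the structure of the model group -/
def Hyp (P : Type*) [Group P] : Prop :=
  Nat.card P = 64 ∧ ∃ Z : Subgroup P, Nat.card Z = 4 ∧ (∀ z ∈ Z, ∀ g : P, g * z = z * g) ∧
    (∀ x : P, x ^ 2 ∈ Z) ∧ (∀ x : P, x ^ 2 = 1 → x ∈ Z) ∧
    (∀ x : P, (∀ g : P, g * x = x * g) → x ∈ Z) ∧ (∀ z ∈ Z, z ^ 2 = 1) ∧
    (∀ z ∈ Z, ∃ a b : P, a * b = z * (b * a))

theorem Hyp.transport {M P : Type*} [Group M] [Group P] (h : Hyp M) (e : M ≃* P) : Hyp P := by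
  obtain ⟨hc, Z, hZ, ha, hb, hc', hd, he, hf⟩ := h
  refine ⟨by rw [← hc]; exact Nat.card_congr e.symm.toEquiv, Z.comap e.symm.toMonoidHom,
    ?_, ?_, ?_, ?_, ?_, ?_, ?_⟩
  · rw [← hZ]
    refine Nat.card_congr ⟨fun x => ⟨e.symm x.1, x.2⟩, fun z => ⟨e z.1, ?_⟩, ?_, ?_⟩
    · show e.symm (e z.1) ∈ Z
      rw [e.symm_apply_apply]; exact z.2
    · intro x; apply Subtype.ext; exact e.apply_symm_apply x.1
    · intro z; apply Subtype.ext; exact e.symm_apply_apply z.1
  · intro z hz g
    have h1 := ha (e.symm z) hz (e.symm g)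
    apply e.symm.injective
    rw [map_mul, map_mul]; exact h1
  · intro x
    show e.symm (x ^ 2) ∈ Z
    rw [map_pow]; exact hb _
  · intro x hx
    exact hc' (e.symm x) (by rw [← map_pow, hx, map_one])
  · intro x hx
    refine hd (e.symm x) (fun g => ?_)
    have h1 := hx (e g)
    apply e.injective
    rw [map_mul, map_mul, e.apply_symm_apply]; exact h1
  · intro z hz
    apply e.symm.injective
    rw [map_pow, map_one]; exact he _ hz
  · intro z hz
    obtain ⟨a, b, hab⟩ := hf (e.symm z) hz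
    refine ⟨e a, e b, ?_⟩
    have h1 := congrArg e hab
    rw [map_mul, map_mul, map_mul, e.apply_symm_apply] at h1
    exact h1

theorem Hyp.concl {P : Type*} [Group P] [Finite P] (h : Hyp P) :
    IsKleinFour (Subgroup.center P) ∧
    Subgroup.center P = Subgroup.closure {x : P | orderOf x = 2} ∧
    Subgroup.center P = commutator P ∧
    Nat.card (P ⧸ Subgroup.center P) = 16 ∧ ∀ x : P ⧸ Subgroup.center P, x ^ 2 = 1 := by
  obtain ⟨hc, Z, hZ, ha, hb, hc', hd, he, hf⟩ := h
  have hcen : Subgroup.center P = Z := by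
    apply le_antisymm
    · intro x hx
      exact hd x (fun g => (Subgroup.mem_center_iff.mp hx g))
    · intro z hz
      exact Subgroup.mem_center_iff.mpr (fun g => ha z hz g)
  have hZ' : Nat.card (Subgroup.center P) = 4 := by rw [hcen]; exact hZ
  have hb' : ∀ x : P, x ^ 2 ∈ Subgroup.center P := by rw [hcen]; exact hb
  refine ⟨?_, ?_, ?_, ?_, ?_⟩
  · refine ⟨hZ', ?_⟩
    have hdvd : Monoid.exponent (Subgroup.center P) ∣ 2 := by
      apply Monoid.exponent_dvd_of_forall_pow_eq_one
      intro z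
      apply Subtype.ext
      have := he z.1 (hcen ▸ z.2)
      simpa using this
    have hne : Monoid.exponent (Subgroup.center P) ≠ 1 := by
      intro h1
      have hsub : Subsingleton (Subgroup.center P) := Monoid.exp_eq_one_iff.mp h1
      have : Nat.card (Subgroup.center P) = 1 := Nat.card_unique
      omega
    rcases (Nat.dvd_prime Nat.prime_two).mp hdvd with h1 | h2
    · exact absurd h1 hne
    · exact h2
  · apply le_antisymm
    · intro z hz
      by_cases h1 : z = 1
      · rw [h1]; exact Subgroup.one_mem _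
      · apply Subgroup.subset_closure
        show orderOf z = 2
        exact orderOf_eq_prime (he z (hcen ▸ hz)) h1
    · rw [Subgroup.closure_le]
      intro x hx
      have hx2 : x ^ 2 = 1 := by
        have h2 : orderOf x = 2 := hx
        rw [← h2]; exact pow_orderOf_eq_one x
      show x ∈ Subgroup.center P
      rw [hcen]; exact hc' x hx2
  · apply le_antisymm
    · intro z hz
      obtain ⟨a, b, hab⟩ := hf z (hcen ▸ hz)
      have hz' : z = ⁅a, b⁆ := by
        rw [commutatorElement_def, hab]; group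
      rw [hz', commutator_def]
      exact Subgroup.commutator_mem_commutator (Subgroup.mem_top a) (Subgroup.mem_top b)
    · rw [commutator_def, Subgroup.commutator_le]
      intro a _ b _
      have e1 : ⁅a, b⁆ = (a * b) ^ 2 * (b⁻¹ * (a ^ 2)⁻¹ * b⁻¹⁻¹) * (b ^ 2)⁻¹ := by
        rw [commutatorElement_def, pow_two, pow_two, pow_two]; group
      rw [e1]
      refine Subgroup.mul_mem _ (Subgroup.mul_mem _ (hb' _) ?_) (Subgroup.inv_mem _ (hb' _))
      exact (inferInstance : (Subgroup.center P).Normal).conj_mem _ (Subgroup.inv_mem _ (hb' _)) _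
  · have h1 := Subgroup.card_eq_card_quotient_mul_card_subgroup (Subgroup.center P)
    rw [hc, hZ'] at h1
    omega
  · intro x
    induction x using QuotientGroup.induction_on with
    | H a =>
      rw [← QuotientGroup.mk_pow, QuotientGroup.eq_one_iff]
      exact hb' a

end abstract

section final

open Cfsg.Agent.Helper3

variable {F : Type*} [Field F] [Fintype F]

theorem card_PSU34 (hF : Fintype.card F = 16) : Nat.card (PSU 3 F 4) = 62400 := by
  have hF' : Fintype.card F = 4 ^ 2 := by rw [hF]; norm_num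
  have h1 := card_PSU (F := F) (q := 4) hF' (n := 3) (by norm_num)
  have h2 := card_GU (F := F) (q := 4) hF' 3
  rw [h2] at h1
  have h3 : ∏ i ∈ Finset.range 3, (if Even i then 4 ^ (i + 1) + 1 else 4 ^ (i + 1) - 1) = 4875 := by
    decide
  rw [h3] at h1
  norm_num at h1
  omega

theorem center_SU34 (hF : Fintype.card F = 16) : Subgroup.center (SU 3 F 4) = ⊥ := by
  have hF' : Fintype.card F = 4 ^ 2 := by rw [hF]; norm_num
  have h1 : Nat.card (Subgroup.center (SU 3 F 4)) = 1 := by
    rw [card_center_SU (F := F) (q := 4) hF' (n := 3) (by norm_num)]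
    decide
  exact (Subgroup.card_eq_one).mp h1

theorem main (hF : Fintype.card F = 16) (S : Sylow 2 (PSU 3 F 4)) :
    Nat.card (S : Subgroup (PSU 3 F 4)) = 64 ∧ Hyp (S : Subgroup (PSU 3 F 4)) := by
  have : Fact (Fintype.card F = 16) := ⟨hF⟩
  have : Fact (Nat.Prime 2) := ⟨Nat.prime_two⟩
  have : Finite (PSU 3 F 4) := inferInstance
  have hcard := card_PSU34 hF
  have hfac : (Nat.card (PSU 3 F 4)).factorization 2 = 6 := by
    rw [hcard]
    have e : (62400 : ℕ) = 2 ^ 6 * 975 := by norm_num
    rw [e, Nat.factorization_mul (by norm_num) (by norm_num), Nat.factorization_pow,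
      Finsupp.add_apply, Finsupp.smul_apply, Nat.Prime.factorization_self Nat.prime_two,
      Nat.factorization_eq_zero_of_not_dvd (show ¬ 2 ∣ 975 by norm_num)]
    norm_num
  have hS : Nat.card (S : Subgroup (PSU 3 F 4)) = 64 := by
    have h := Sylow.card_eq_multiplicity S
    rw [hfac] at h
    rw [h]; norm_num
  refine ⟨hS, ?_⟩
  -- the model
  have hmodel : Hyp (HG F) :=
    ⟨card_HG, ZG F, card_ZG, ZG_central, sq_mem_ZG, mem_ZG_of_sq, mem_ZG_of_central, ZG_sq,
      ZG_comm⟩
  let f : HG F →* PSU 3 F 4 := (QuotientGroup.mk' (Subgroup.center (SU 3 F 4))).comp toSU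
  have hf : Function.Injective f := by
    rw [← MonoidHom.ker_eq_bot_iff]
    ext x
    rw [MonoidHom.mem_ker, Subgroup.mem_bot]
    constructor
    · intro hx
      have h1 : toSU x ∈ Subgroup.center (SU 3 F 4) := by
        have : (QuotientGroup.mk' (Subgroup.center (SU 3 F 4))) (toSU x) = 1 := hx
        rwa [QuotientGroup.mk'_apply, QuotientGroup.eq_one_iff] at this
      rw [center_SU34 hF, Subgroup.mem_bot] at h1
      exact toSU_injective (h1.trans (map_one _).symm)
    · rintro rfl
      exact map_one f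
  have hrange : Nat.card f.range = 2 ^ (Nat.card (PSU 3 F 4)).factorization 2 := by
    rw [hfac, ← Nat.card_congr (MonoidHom.ofInjective hf).toEquiv, card_HG]
    norm_num
  let S' : Sylow 2 (PSU 3 F 4) := Sylow.ofCard f.range hrange
  have e1 : HG F ≃* (S' : Subgroup (PSU 3 F 4)) := MonoidHom.ofInjective hf
  have e2 : (S' : Subgroup (PSU 3 F 4)) ≃* (S : Subgroup (PSU 3 F 4)) := Sylow.equiv S' S
  exact hmodel.transport (e1.trans e2)

end final

end Cfsg.Agent.Helper5.SU34
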