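import Mathlib
import Cfsg.Prelude

set_option autoImplicit false

namespace Cfsg.Agent.Helper5

open Polynomial in
/-- an endomorphism of a nontrivial finite `𝔽_p`-space with `T ^ (p - 1) = 1` has an eigenvector -/
theorem exists_eigen_of_pow {p : ℕ} [Fact p.Prime] {V : Type*} [AddCommGroup V] [Module (ZMod p) V]
    [Finite V] [Nontrivial V] (T : Module.End (ZMod p) V) (hT : T ^ (p - 1) = 1) :
    ∃ (c : ZMod p) (v : V), v ≠ 0 ∧ T v = c • v := by
  have hp : p.Prime := Fact.out
  have h1 : Polynomial.aeval T (X ^ (p - 1) - 1 : (ZMod p)[X]) = 0 := by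
    simp [hT]
  have hdvd := minpoly.dvd (ZMod p) T h1
  have hsplit : (X ^ (p - 1) - 1 : (ZMod p)[X]).Splits := by
    have h2 := FiniteField.splits_X_pow_card_sub_X (p := p) (K := ZMod p)
    rw [Algebra.algebraMap_self, Polynomial.map_id, ZMod.card] at h2
    have e : (X ^ p - X : (ZMod p)[X]) = X * (X ^ (p - 1) - 1) := by
      have hpp : (X : (ZMod p)[X]) ^ p = X ^ (p - 1) * X := by
        rw [← pow_succ, Nat.sub_add_cancel hp.one_le]
      rw [hpp]
      ring
    rw [e] at h2
    exact Polynomial.splits_X_mul.mp h2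
  have hne : (X ^ (p - 1) - 1 : (ZMod p)[X]) ≠ 0 := by
    intro h0
    have := congrArg (Polynomial.eval 0) h0
    have hp1 : p - 1 ≠ 0 := by have := hp.one_lt; omega
    simp [hp1] at this
  have hms : (minpoly (ZMod p) T).Splits := hsplit.of_dvd hne hdvd
  have hint : IsIntegral (ZMod p) T := Algebra.IsIntegral.isIntegral T
  have hdeg : (minpoly (ZMod p) T).degree ≠ 0 := (minpoly.degree_pos hint).ne'
  obtain ⟨c, hc⟩ := hms.exists_eval_eq_zero hdeg
  have hev := Module.End.hasEigenvalue_of_isRoot (f := T) (μ := c) hc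
  obtain ⟨v, hv⟩ := hev.exists_hasEigenvector
  exact ⟨c, v, hv.2, hv.apply_eq_smul⟩

/-- additive-hom version -/
theorem exists_eigen_add {p : ℕ} [Fact p.Prime] {V : Type*} [AddCommGroup V] [Module (ZMod p) V]
    [Finite V] [Nontrivial V] (f : V →+ V) (hf : ∀ v, f^[p - 1] v = v) :
    ∃ (c : ℕ) (v : V), v ≠ 0 ∧ f v = c • v := by
  obtain ⟨T, hTdef⟩ : ∃ T : Module.End (ZMod p) V, T = f.toZModLinearMap p := ⟨_, rfl⟩
  have hTapp : ∀ a : V, T a = f a := by
    intro a; rw [hTdef]; rfl
  have hiter : ∀ (m : ℕ) (a : V), (T ^ m) a = f^[m] a := by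
    intro m
    induction m with
    | zero => intro a; simp
    | succ m ih =>
      intro a
      rw [pow_succ, Module.End.mul_apply, hTapp, ih, Function.iterate_succ_apply]
  have hT : T ^ (p - 1) = 1 := by
    ext x
    rw [hiter, hf, Module.End.one_apply]
  obtain ⟨c, v, hv, hTv⟩ := exists_eigen_of_pow T hT
  refine ⟨c.val, v, hv, ?_⟩
  rw [hTapp] at hTv
  rw [hTv]
  conv_lhs => rw [← ZMod.natCast_zmod_val c]
  exact Nat.cast_smul_eq_nsmul (ZMod p) c.val v

/-- multiplicative version: an endomorphism `φ` of a nontrivial finite elementary abelian `p`-group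
with `φ^(p-1) = id` has an eigenvector -/
theorem exists_eigen_comm {A : Type*} [CommGroup A] [Finite A] [Nontrivial A] {p : ℕ}
    [Fact p.Prime] (hA : ∀ a : A, a ^ p = 1) (φ : A →* A) (hφ : ∀ a, φ^[p - 1] a = a) :
    ∃ (c : ℕ) (v : A), v ≠ 1 ∧ φ v = v ^ c := by
  letI : Module (ZMod p) (Additive A) := AddCommGroup.zmodModule (fun x => by
    show Additive.ofMul (Additive.toMul x ^ p) = 0
    rw [hA]; rfl)
  have hf : ∀ v : Additive A, (MonoidHom.toAdditive φ)^[p - 1] v = v := by
    intro v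
    have h1 : ∀ (m : ℕ) (a : A), (MonoidHom.toAdditive φ)^[m] (Additive.ofMul a) =
        Additive.ofMul (φ^[m] a) := by
      intro m
      induction m with
      | zero => intro a; rfl
      | succ m ih =>
        intro a
        rw [Function.iterate_succ_apply, Function.iterate_succ_apply]
        exact ih (φ a)
    obtain ⟨a, rfl⟩ := Additive.ofMul.surjective v
    rw [h1, hφ]
  obtain ⟨c, v, hv, hfv⟩ := exists_eigen_add (p := p) (MonoidHom.toAdditive φ) hf
  obtain ⟨a, rfl⟩ := Additive.ofMul.surjective v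
  refine ⟨c, a, ?_, ?_⟩
  · intro h
    apply hv
    rw [h]; rfl
  · exact Additive.ofMul.injective hfv

end Cfsg.Agent.Helper5
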