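import Mathlib
import Cfsg.Prelude.Def_Classical
import Cfsg.Prelude.Def_LieClassical
import Cfsg.Prelude.Def_Solvable
import Cfsg.Prelude.Def_Transfer
import Cfsg.Agent.Helper3.Unitary
import Cfsg.Agent.Helper5.SU3q
import Cfsg.Agent.Helper5.SU3Aut
import Cfsg.Agent.Helper16.CharP

/-!
The automorphism group of the model group `HQ D` (Sylow 2-subgroup of `SU 3 F q`, `q = 2^n`):
every automorphism induces `b ↦ u * ψ b` on `F` (`u` a unit, `ψ` a ring endomorphism); the
automorphisms inducing the identity form an elementary abelian 2-group `CQ`, the 2-core.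
-/

set_option autoImplicit false

namespace Cfsg.Agent.Helper5.SU3AutB

open Cfsg Matrix Cfsg.Agent.Helper5.SU3q
open Cfsg.Agent.Helper5.SU3Aut (sg dep_div dep_mul nrm_mem sqrtK aOf aOf_b aut_ZQ)

/-- hypotheses on the map induced on `F` by an arbitrary automorphism of the model group -/
structure AG {F : Type*} [Field F] {q : ℕ} (D : FD F q) (a : F → F) : Prop where
  add : ∀ x y, a (x + y) = a x + a y
  nrm : ∀ x y, x * D.φ x = y * D.φ y → a x * D.φ (a x) = a y * D.φ (a y)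
  com : ∀ x y, D.φ x * y = D.φ y * x → D.φ (a x) * a y = D.φ (a y) * a x
  binv : ∃ b : F → F, (∀ x, b (a x) = x) ∧
    (∀ x y, D.φ x * y = D.φ y * x → D.φ (b x) * b y = D.φ (b y) * b x)

section core

variable {F : Type*} [Field F] {q : ℕ} {D : FD F q} {a : F → F}

theorem AG.zero (h : AG D a) : a 0 = 0 := by
  have h1 := h.add 0 0
  rw [add_zero] at h1
  linear_combination -h1

theorem AG.ne_zero (h : AG D a) {x : F} (hx : x ≠ 0) : a x ≠ 0 := by
  intro h0
  apply hx
  obtain ⟨b, hb, -⟩ := h.binv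
  have h1 := hb x
  rw [h0, ← h.zero, hb] at h1
  exact h1.symm

theorem AG.indep (h : AG D a) {x y : F} (hxy : ¬ (D.φ x * y = D.φ y * x)) :
    ¬ (D.φ (a x) * a y = D.φ (a y) * a x) := by
  intro hp
  apply hxy
  obtain ⟨b, hb, hbc⟩ := h.binv
  have h1 := hbc (a x) (a y) hp
  rw [hb, hb] at h1
  exact h1

theorem AG.ratio_mem (h : AG D a) {x l : F} (hl : D.φ l = l) (hx : x ≠ 0) :
    D.φ (a (l * x) / a x) = a (l * x) / a x :=
  dep_div (h.ne_zero hx) (h.com x (l * x) (dep_mul hl))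

theorem AG.pair (h : AG D a) {x y l : F} (hl : D.φ l = l)
    (hxy : ¬ (D.φ x * y = D.φ y * x)) : a (l * x) / a x = a (l * y) / a y := by
  have hx : x ≠ 0 := by
    rintro rfl
    apply hxy
    rw [map_zero, zero_mul, mul_zero]
  have hy : y ≠ 0 := by
    rintro rfl
    apply hxy
    rw [map_zero, zero_mul, mul_zero]
  have hxy0 : x + y ≠ 0 := by
    intro h0
    apply hxy
    have hyx : y = x := by linear_combination h0 - x * D.two
    rw [hyx]
  have hax := h.ne_zero hx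
  have hay := h.ne_zero hy
  have haxy := h.ne_zero hxy0
  have hu := h.ratio_mem hl hx
  have hv := h.ratio_mem hl hy
  have ht := h.ratio_mem hl hxy0
  set u := a (l * x) / a x with hu_def
  set v := a (l * y) / a y with hv_def
  set t := a (l * (x + y)) / a (x + y) with ht_def
  have e1 : a (l * x) = u * a x := by rw [hu_def, div_mul_cancel₀ _ hax]
  have e2 : a (l * y) = v * a y := by rw [hv_def, div_mul_cancel₀ _ hay]
  have e3 : a (l * (x + y)) = t * a (x + y) := by rw [ht_def, div_mul_cancel₀ _ haxy]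
  have e4 : (u - t) * a x = (t - v) * a y := by
    have h5 : a (l * (x + y)) = a (l * x) + a (l * y) := by rw [mul_add, h.add]
    rw [e3, e1, e2, h.add] at h5
    linear_combination -h5
  have htv : t = v := by
    by_contra hne
    have hne' : t - v ≠ 0 := sub_ne_zero.mpr hne
    apply h.indep hxy
    have e5 : a y = (u - t) / (t - v) * a x := by
      field_simp
      linear_combination -e4
    have hc : D.φ ((u - t) / (t - v)) = (u - t) / (t - v) := by
      rw [map_div₀, map_sub, map_sub, hu, hv, ht]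
    rw [e5]
    exact dep_mul hc
  rw [htv] at e4
  have h6 : (u - v) * a x = 0 := by linear_combination e4
  rcases mul_eq_zero.mp h6 with h7 | h7
  · exact sub_eq_zero.mp h7
  · exact absurd h7 hax

theorem AG.sg_add (h : AG D a) (x y : F) : sg a (x + y) = sg a x + sg a y := by
  unfold sg; rw [h.add, add_div]

theorem AG.sg_one (h : AG D a) : sg a 1 = 1 := by
  unfold sg; exact div_self (h.ne_zero one_ne_zero)

theorem AG.sg_zero (h : AG D a) : sg a 0 = 0 := by
  unfold sg; rw [h.zero, zero_div]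

theorem AG.sg_mem (h : AG D a) {l : F} (hl : D.φ l = l) : D.φ (sg a l) = sg a l := by
  have h1 := h.ratio_mem hl (one_ne_zero (α := F))
  rw [mul_one] at h1
  exact h1

theorem AG.semi (h : AG D a) {w : F} (hw : w + D.φ w = 1) {l : F} (hl : D.φ l = l) (x : F) :
    a (l * x) = sg a l * a x := by
  have hww : D.φ w ≠ w := by
    intro h0
    rw [h0] at hw
    have h10 : (1 : F) = 0 := by linear_combination -hw + w * D.two
    exact one_ne_zero h10
  by_cases hx0 : x = 0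
  · rw [hx0, mul_zero, h.zero, mul_zero]
  have hax := h.ne_zero hx0
  have key : ∀ y : F, y ≠ 0 → D.φ y ≠ y → a (l * y) = sg a l * a y := by
    intro y hy0 hy
    have hind : ¬ (D.φ (1 : F) * y = D.φ y * 1) := by
      rw [map_one, one_mul, mul_one]
      exact fun h0 => hy h0.symm
    have h1 := h.pair hl hind
    rw [mul_one] at h1
    unfold sg
    rw [h1, div_mul_cancel₀ _ (h.ne_zero hy0)]
  by_cases hx : D.φ x = x
  · have hwx0 : w * x ≠ 0 := by
      apply mul_ne_zero _ hx0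
      rintro rfl
      rw [map_zero, add_zero] at hw
      exact zero_ne_one hw
    have hwx : D.φ (w * x) ≠ w * x := by
      rw [map_mul, hx]
      intro h0
      exact hww (mul_right_cancel₀ hx0 h0)
    have h1 := key (w * x) hwx0 hwx
    have hind : ¬ (D.φ x * (w * x) = D.φ (w * x) * x) := by
      rw [map_mul, hx]
      intro h0
      apply hww
      have h2 : w * (x * x) = D.φ w * (x * x) := by linear_combination h0
      exact (mul_right_cancel₀ (mul_ne_zero hx0 hx0) h2).symm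
    have h3 := h.pair hl hind
    rw [h1, mul_div_assoc, div_self (h.ne_zero hwx0), mul_one] at h3
    rw [← h3, div_mul_cancel₀ _ hax]
  · exact key x hx0 hx

theorem AG.sg_mul (h : AG D a) {w : F} (hw : w + D.φ w = 1) {l : F} (hl : D.φ l = l) (x : F) :
    sg a (l * x) = sg a l * sg a x := by
  unfold sg
  rw [h.semi hw hl x, mul_div_assoc]
  rfl

theorem AG.sg_sub (h : AG D a) (x y : F) : sg a (x - y) = sg a x - sg a y := by
  have h1 := h.sg_add (x - y) y
  rw [sub_add_cancel] at h1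
  linear_combination -h1

theorem AG.norm (h : AG D a) {w : F} (hw : w + D.φ w = 1) {m : ℕ} (hq : q = 2 ^ (m + 1))
    (b : F) : a b * D.φ (a b) = (a 1 * D.φ (a 1)) * sg a (b * D.φ b) := by
  obtain ⟨hμ, hμ2⟩ := sqrtK (D := D) hq (nrm_mem (D := D) b)
  have h1 : b * D.φ b = (b * D.φ b) ^ (2 ^ m) * D.φ ((b * D.φ b) ^ (2 ^ m)) := by
    rw [hμ, hμ2]
  have h2 := h.nrm b _ h1
  have h3 : a ((b * D.φ b) ^ (2 ^ m)) = sg a ((b * D.φ b) ^ (2 ^ m)) * a 1 := by
    have := h.semi hw hμ 1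
    rw [mul_one] at this
    exact this
  have h4 : sg a (b * D.φ b) = sg a ((b * D.φ b) ^ (2 ^ m)) * sg a ((b * D.φ b) ^ (2 ^ m)) := by
    rw [← h.sg_mul hw hμ, hμ2]
  rw [h2, h3, map_mul, h.sg_mem hμ, h4]
  ring

theorem AG.sg_norm (h : AG D a) {w : F} (hw : w + D.φ w = 1) {m : ℕ} (hq : q = 2 ^ (m + 1))
    (b : F) : sg a b * D.φ (sg a b) = sg a (b * D.φ b) := by
  have ha1 := h.ne_zero (one_ne_zero (α := F))
  have hφa1 : D.φ (a 1) ≠ 0 := by
    intro h0
    have h1 := congrArg D.φ h0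
    rw [D.hφ2, map_zero] at h1
    exact ha1 h1
  have h1 := h.norm hw hq b
  have e : sg a b * D.φ (sg a b) = (a b * D.φ (a b)) / (a 1 * D.φ (a 1)) := by
    unfold sg
    rw [map_div₀, div_mul_div_comm]
  rw [e, h1, mul_div_cancel_left₀ _ (mul_ne_zero ha1 hφa1)]

theorem AG.sg_tr (h : AG D a) {w : F} (hw : w + D.φ w = 1) {m : ℕ} (hq : q = 2 ^ (m + 1))
    (b : F) : sg a b + D.φ (sg a b) = sg a (b + D.φ b) := by
  have hN1 := h.sg_norm hw hq (b + 1)
  have e : (b + 1) * D.φ (b + 1) = b * D.φ b + (b + D.φ b) + 1 := by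
    rw [map_add, map_one]; ring
  rw [e, h.sg_add, h.sg_add, h.sg_add, h.sg_one, map_add, map_one] at hN1
  have hN := h.sg_norm hw hq b
  linear_combination hN1 - hN

theorem AG.sg_mul_all (h : AG D a) {w : F} (hw : w + D.φ w = 1) {m : ℕ} (hq : q = 2 ^ (m + 1))
    (x y : F) : sg a (x * y) = sg a x * sg a y := by
  have hφw : D.φ w = 1 - w := by linear_combination hw
  have dec : ∀ z : F, ∃ z0 z1 : F, D.φ z0 = z0 ∧ D.φ z1 = z1 ∧ z = z0 + z1 * w := by
    intro z
    refine ⟨z + (z + D.φ z) * w, z + D.φ z, ?_, ?_, ?_⟩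
    · rw [map_add, map_mul, map_add, D.hφ2, hφw]
      linear_combination (D.φ z - z * w - D.φ z * w) * D.two
    · rw [map_add, D.hφ2]; ring
    · linear_combination (-(z + D.φ z) * w) * D.two
  obtain ⟨x0, x1, hx0, hx1, rfl⟩ := dec x
  obtain ⟨y0, y1, hy0, hy1, rfl⟩ := dec y
  have hn0 : D.φ (w * D.φ w) = w * D.φ w := nrm_mem w
  have hw2 : w * w = w - w * D.φ w := by rw [hφw]; ring
  have hT := h.sg_tr hw hq w
  rw [hw, h.sg_one] at hT
  have hN := h.sg_norm hw hq w
  have hw'2 : sg a w * sg a w = sg a w - sg a (w * D.φ w) := by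
    linear_combination (sg a w) * hT - hN
  have hc : D.φ (x0 * y1 + x1 * y0 + x1 * y1) = x0 * y1 + x1 * y0 + x1 * y1 := by
    simp only [map_add, map_mul, hx0, hx1, hy0, hy1]
  have e : (x0 + x1 * w) * (y0 + y1 * w) =
      (x0 * y0 - x1 * (y1 * (w * D.φ w))) + (x0 * y1 + x1 * y0 + x1 * y1) * w := by
    linear_combination (x1 * y1) * hw2
  rw [e, h.sg_add, h.sg_sub, h.sg_mul hw hc w, h.sg_mul hw hx0 y0, h.sg_mul hw hx1,
    h.sg_mul hw hy1, h.sg_add, h.sg_add, h.sg_mul hw hx0 y1, h.sg_mul hw hx1 y0,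
    h.sg_mul hw hx1 y1, h.sg_add, h.sg_add, h.sg_mul hw hx1 w, h.sg_mul hw hy1 w]
  linear_combination (-(sg a x1 * sg a y1)) * hw'2

/-- the induced ring endomorphism -/
def psiG (h : AG D a) {w : F} (hw : w + D.φ w = 1) {m : ℕ} (hq : q = 2 ^ (m + 1)) : F →+* F where
  toFun := sg a
  map_one' := h.sg_one
  map_mul' := h.sg_mul_all hw hq
  map_zero' := h.sg_zero
  map_add' := h.sg_add

theorem psiG_apply (h : AG D a) {w : F} (hw : w + D.φ w = 1) {m : ℕ} (hq : q = 2 ^ (m + 1))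
    (x : F) : psiG h hw hq x = a x / a 1 := rfl

end core

section autos

variable {F : Type*} [Field F] {q : ℕ} {D : FD F q}

theorem phi_comm (ψ : F →+* F) (x : F) : D.φ (ψ x) = ψ (D.φ x) := by
  rw [D.hφ, D.hφ, map_pow]

theorem com_of_aut (α : HQ D ≃* HQ D) (w : F) (hw : w + D.φ w = 1) (x y : F)
    (hxy : D.φ x * y = D.φ y * x) :
    D.φ (aOf α w hw x) * aOf α w hw y = D.φ (aOf α w hw y) * aOf α w hw x := by
  have e : liftQ w hw x * liftQ w hw y = liftQ w hw y * liftQ w hw x := by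
    ext
    · rw [gmul_b, gmul_b, add_comm]
    · rw [gmul_c, gmul_c, liftQ_b, liftQ_b]; linear_combination hxy
  have h1 := congrArg (fun t => (α t).c) e
  simp only [map_mul, gmul_c] at h1
  show D.φ (α (liftQ w hw x)).b * (α (liftQ w hw y)).b =
    D.φ (α (liftQ w hw y)).b * (α (liftQ w hw x)).b
  linear_combination h1

theorem ag_of_aut (α : HQ D ≃* HQ D) (w : F) (hw : w + D.φ w = 1) : AG D (aOf α w hw) where
  add x y := by
    have h1 := aOf_b α w hw (liftQ w hw x * liftQ w hw y)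
    rw [map_mul, gmul_b, gmul_b, liftQ_b, liftQ_b] at h1
    exact h1.symm
  nrm x y hxy := by
    have e : liftQ w hw x * liftQ w hw x = liftQ w hw y * liftQ w hw y := by
      ext
      · rw [gmul_b, gmul_b, liftQ_b, liftQ_b]; linear_combination (x - y) * D.two
      · rw [gmul_c, gmul_c, liftQ_b, liftQ_b, liftQ_c, liftQ_c]
        linear_combination (2 * w + 1) * hxy
    have h1 := congrArg (fun t => (α t).c) e
    simp only [map_mul, gmul_c] at h1
    show (α (liftQ w hw x)).b * D.φ (α (liftQ w hw x)).b =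
      (α (liftQ w hw y)).b * D.φ (α (liftQ w hw y)).b
    linear_combination h1 - ((α (liftQ w hw x)).c - (α (liftQ w hw y)).c) * D.two
  com := com_of_aut α w hw
  binv := ⟨aOf α.symm w hw, fun x => by
    have h1 := aOf_b α.symm w hw (α (liftQ w hw x))
    rw [α.symm_apply_apply, liftQ_b] at h1
    exact h1.symm, com_of_aut α.symm w hw⟩

/-- the endomorphism attached to a unit and a ring endomorphism -/
def dlHom (D : FD F q) (u : Fˣ) (ψ : F →+* F) : HQ D →* HQ D where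
  toFun x := ⟨u * ψ x.b, (u * D.φ u) * ψ x.c, by
    have h := congrArg ψ x.rel
    rw [map_add, map_mul] at h
    simp only [map_mul, phi_comm (D := D) ψ, D.hφ2]
    linear_combination ((u : F) * D.φ u) * h⟩
  map_one' := by
    ext
    · show (u : F) * ψ 0 = 0
      rw [map_zero, mul_zero]
    · show ((u : F) * D.φ u) * ψ 0 = 0
      rw [map_zero, mul_zero]
  map_mul' x y := by
    ext
    · show (u : F) * ψ (x.b + y.b) = u * ψ x.b + u * ψ y.b
      rw [map_add]; ring
    · show ((u : F) * D.φ u) * ψ (x.c + y.c + D.φ x.b * y.b) =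
        (u * D.φ u) * ψ x.c + (u * D.φ u) * ψ y.c + D.φ (u * ψ x.b) * (u * ψ y.b)
      rw [map_add, map_add, map_mul, map_mul, phi_comm (D := D) ψ]; ring

theorem dlHom_b (u : Fˣ) (ψ : F →+* F) (x : HQ D) : (dlHom D u ψ x).b = u * ψ x.b := rfl

theorem dlHom_injective (u : Fˣ) (ψ : F →+* F) : Function.Injective (dlHom D u ψ) := by
  intro x y hxy
  have hu : (u : F) ≠ 0 := u.ne_zero
  have hφu : D.φ (u : F) ≠ 0 := by
    intro h0
    have h1 := congrArg D.φ h0
    rw [D.hφ2, map_zero] at h1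
    exact hu h1
  have h1 : (u : F) * ψ x.b = u * ψ y.b := congrArg HQ.b hxy
  have h2 : ((u : F) * D.φ u) * ψ x.c = (u * D.φ u) * ψ y.c := congrArg HQ.c hxy
  exact HQ.ext (ψ.injective (mul_left_cancel₀ hu h1))
    (ψ.injective (mul_left_cancel₀ (mul_ne_zero hu hφu) h2))

instance instFiniteHQ [Finite F] : Finite (HQ D) :=
  Finite.of_injective (fun x : HQ D => (x.b, x.c)) (fun _ _ h =>
    HQ.ext (congrArg Prod.fst h) (congrArg Prod.snd h))

/-- the automorphism attached to a unit and a ring endomorphism -/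
noncomputable def dl [Finite F] (D : FD F q) (u : Fˣ) (ψ : F →+* F) : MulAut (HQ D) :=
  MulEquiv.ofBijective (dlHom D u ψ) (Finite.injective_iff_bijective.mp (dlHom_injective u ψ))

theorem dl_b [Finite F] (u : Fˣ) (ψ : F →+* F) (x : HQ D) : (dl D u ψ x).b = u * ψ x.b := rfl

/-- the automorphisms acting trivially modulo the centre -/
def CQ (D : FD F q) : Subgroup (MulAut (HQ D)) where
  carrier := {α | ∀ x, (α x).b = x.b}
  mul_mem' {α β} hα hβ x := by
    show (α (β x)).b = x.b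
    rw [hα, hβ]
  one_mem' x := rfl
  inv_mem' {α} hα x := by
    have h := hα (α⁻¹ x)
    rw [MulAut.apply_inv_self] at h
    exact h.symm

theorem mem_CQ (α : MulAut (HQ D)) : α ∈ CQ D ↔ ∀ x, (α x).b = x.b := Iff.rfl

theorem CQ_fix_Z {m : ℕ} (hq : q = 2 ^ (m + 1)) (w : F) (hw : w + D.φ w = 1)
    {c : MulAut (HQ D)} (hc : c ∈ CQ D) {z : HQ D} (hz : z ∈ ZQ D) : c z = z := by
  have hb : z.b = 0 := hz
  have hzc : D.φ z.c = z.c := by
    apply phi_eq_of_ker
    rw [z.rel, hb, zero_mul]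
  obtain ⟨hμ, hμ2⟩ := sqrtK (D := D) hq hzc
  have ez : z = liftQ w hw (z.c ^ (2 ^ m)) * liftQ w hw (z.c ^ (2 ^ m)) := by
    ext
    · rw [gmul_b, liftQ_b, hb]; linear_combination (-(z.c ^ (2 ^ m))) * D.two
    · rw [gmul_c, liftQ_b, liftQ_c, hμ]
      linear_combination -hμ2 - (w * (z.c ^ (2 ^ m) * z.c ^ (2 ^ m))) * D.two
  have h1 : (c (liftQ w hw (z.c ^ (2 ^ m)))).b = z.c ^ (2 ^ m) := by
    rw [hc, liftQ_b]
  have h2 : c (liftQ w hw (z.c ^ (2 ^ m)) * liftQ w hw (z.c ^ (2 ^ m))) =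
      liftQ w hw (z.c ^ (2 ^ m)) * liftQ w hw (z.c ^ (2 ^ m)) := by
    rw [map_mul]
    ext
    · rw [gmul_b, gmul_b, liftQ_b, h1]
    · rw [gmul_c, gmul_c, liftQ_b, liftQ_c, h1]
      linear_combination ((c (liftQ w hw (z.c ^ (2 ^ m)))).c -
        w * (z.c ^ (2 ^ m) * D.φ (z.c ^ (2 ^ m)))) * D.two
  rw [ez]
  exact h2

/-- the additive map attached to an element of `CQ` -/
def fC (c : MulAut (HQ D)) (w : F) (hw : w + D.φ w = 1) (b : F) : F :=
  (c (liftQ w hw b)).c + w * (b * D.φ b)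

theorem CQ_c {m : ℕ} (hq : q = 2 ^ (m + 1)) (w : F) (hw : w + D.φ w = 1)
    {c : MulAut (HQ D)} (hc : c ∈ CQ D) (x : HQ D) : (c x).c = x.c + fC c w hw x.b := by
  have hz : (liftQ w hw x.b)⁻¹ * x ∈ ZQ D := by
    rw [mem_ZQ, gmul_b]
    show (liftQ w hw x.b).b + x.b = 0
    rw [liftQ_b]; linear_combination x.b * D.two
  have h1 := CQ_fix_Z hq w hw hc hz
  have h2 : c x = c (liftQ w hw x.b) * c ((liftQ w hw x.b)⁻¹ * x) := by
    rw [← map_mul, mul_inv_cancel_left]
  rw [h2, h1, gmul_c, gmul_c, gmul_b]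
  have h3 : ((liftQ w hw x.b)⁻¹).c = (liftQ w hw x.b).c + (liftQ w hw x.b).b * D.φ (liftQ w hw x.b).b :=
    rfl
  have h4 : ((liftQ w hw x.b)⁻¹).b = (liftQ w hw x.b).b := rfl
  rw [h3, h4, liftQ_b, liftQ_c]
  unfold fC
  linear_combination (D.φ (c (liftQ w hw x.b)).b * x.b - x.b * D.φ x.b + 2 * (x.b * D.φ x.b)) * D.two

theorem fC_mem (w : F) (hw : w + D.φ w = 1) {c : MulAut (HQ D)} (hc : c ∈ CQ D) (b : F) :
    fC c w hw b ∈ (tauQ D).ker := by
  rw [AddMonoidHom.mem_ker, tauQ_apply]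
  unfold fC
  have h1 := (c (liftQ w hw b)).rel
  rw [hc, liftQ_b] at h1
  simp only [map_add, map_mul, D.hφ2]
  linear_combination h1 + (b * D.φ b) * hw + (b * D.φ b) * D.two

theorem fC_add {m : ℕ} (hq : q = 2 ^ (m + 1)) (w : F) (hw : w + D.φ w = 1)
    {c : MulAut (HQ D)} (hc : c ∈ CQ D) (x y : F) :
    fC c w hw (x + y) = fC c w hw x + fC c w hw y := by
  have h1 := congrArg HQ.c (map_mul c (liftQ w hw x) (liftQ w hw y))
  rw [CQ_c hq w hw hc, gmul_c, gmul_c, gmul_b, CQ_c hq w hw hc (liftQ w hw x),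
    CQ_c hq w hw hc (liftQ w hw y), hc (liftQ w hw x), hc (liftQ w hw y), liftQ_b, liftQ_b] at h1
  linear_combination h1

/-- the automorphism attached to an additive map into the fixed field -/
def cOf (D : FD F q) (f : F →+ (tauQ D).ker) : HQ D ≃* HQ D where
  toFun x := ⟨x.b, x.c + (f x.b : F), by
    have hk : (f x.b : F) + D.φ (f x.b : F) = 0 := (f x.b).2
    rw [map_add]
    linear_combination x.rel + hk⟩
  invFun x := ⟨x.b, x.c + (f x.b : F), by
    have hk : (f x.b : F) + D.φ (f x.b : F) = 0 := (f x.b).2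
    rw [map_add]
    linear_combination x.rel + hk⟩
  left_inv x := by
    ext
    · rfl
    · show x.c + (f x.b : F) + (f x.b : F) = x.c
      linear_combination (f x.b : F) * D.two
  right_inv x := by
    ext
    · rfl
    · show x.c + (f x.b : F) + (f x.b : F) = x.c
      linear_combination (f x.b : F) * D.two
  map_mul' x y := by
    ext
    · rfl
    · show x.c + y.c + D.φ x.b * y.b + (f (x.b + y.b) : F) =
        x.c + (f x.b : F) + (y.c + (f y.b : F)) + D.φ x.b * y.b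
      rw [map_add, AddSubgroup.coe_add]; ring

theorem cOf_b (f : F →+ (tauQ D).ker) (x : HQ D) : (cOf D f x).b = x.b := rfl
theorem cOf_c (f : F →+ (tauQ D).ker) (x : HQ D) : (cOf D f x).c = x.c + (f x.b : F) := rfl

/-- `CQ` is in bijection with the additive maps from `F` to the fixed field -/
noncomputable def cqEquiv {m : ℕ} (hq : q = 2 ^ (m + 1)) (w : F) (hw : w + D.φ w = 1) :
    CQ D ≃ (F →+ (tauQ D).ker) where
  toFun c := AddMonoidHom.mk' (fun b => ⟨fC c.1 w hw b, fC_mem w hw c.2 b⟩) (fun x y =>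
    Subtype.ext (fC_add hq w hw c.2 x y))
  invFun f := ⟨cOf D f, fun x => rfl⟩
  left_inv c := by
    apply Subtype.ext
    apply MulEquiv.ext
    intro x
    ext
    · exact (c.2 x).symm
    · exact (CQ_c hq w hw c.2 x).symm
  right_inv f := by
    apply AddMonoidHom.ext
    intro b
    apply Subtype.ext
    show fC (cOf D f) w hw b = (f b : F)
    unfold fC
    rw [cOf_c, liftQ_c, liftQ_b]
    linear_combination (w * (b * D.φ b)) * D.two

theorem CQ_comm {m : ℕ} (hq : q = 2 ^ (m + 1)) (w : F) (hw : w + D.φ w = 1)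
    {c c' : MulAut (HQ D)} (hc : c ∈ CQ D) (hc' : c' ∈ CQ D) : c * c' = c' * c := by
  apply MulEquiv.ext
  intro x
  show c (c' x) = c' (c x)
  ext
  · rw [hc, hc', hc', hc]
  · rw [CQ_c hq w hw hc, CQ_c hq w hw hc', CQ_c hq w hw hc', CQ_c hq w hw hc, hc, hc']
    ring

theorem CQ_sq {m : ℕ} (hq : q = 2 ^ (m + 1)) (w : F) (hw : w + D.φ w = 1)
    {c : MulAut (HQ D)} (hc : c ∈ CQ D) : c ^ 2 = 1 := by
  apply MulEquiv.ext
  intro x
  rw [pow_two]
  show c (c x) = x
  ext
  · rw [hc, hc]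
  · rw [CQ_c hq w hw hc, CQ_c hq w hw hc, hc]
    linear_combination (fC c w hw x.b) * D.two

theorem CQ_normal (w : F) (hw : w + D.φ w = 1) : (CQ D).Normal := by
  constructor
  intro α hα β x
  show (β (α (β⁻¹ x))).b = x.b
  rw [aOf_b β w hw, hα, ← aOf_b β w hw, MulAut.apply_inv_self]

end autos

section counting

theorem cnt_ringHom {F : Type*} [Field F] [Fintype F] {n : ℕ} (hF : Fintype.card F = (2 ^ n) ^ 2)
    (h2 : (2 : F) = 0) : Nat.card (F →+* F) = 2 * n := by
  have : CharP F 2 := CharTwo.of_one_ne_zero_of_two_eq_zero one_ne_zero h2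
  let _ : Algebra (ZMod 2) F := ZMod.algebra F 2
  have h1 : Nat.card (F →ₐ[ZMod 2] F) = Module.finrank (ZMod 2) F :=
    FiniteField.natCard_algHom_of_finrank_dvd (F := ZMod 2) (K := F) (L := F) (dvd_refl _)
  have h3 := Module.natCard_eq_pow_finrank (K := ZMod 2) (V := F)
  rw [Nat.card_eq_fintype_card, hF, Nat.card_zmod, ← pow_mul] at h3
  have h4 : n * 2 = Module.finrank (ZMod 2) F := Nat.pow_right_injective (le_refl 2) h3
  have hc : ∀ (f : F →+* F) (r : ZMod 2), f (algebraMap (ZMod 2) F r) = algebraMap (ZMod 2) F r :=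
    fun f r => DFunLike.congr_fun (Subsingleton.elim (f.comp (algebraMap (ZMod 2) F))
      (algebraMap (ZMod 2) F)) r
  have e : (F →+* F) ≃ (F →ₐ[ZMod 2] F) :=
    { toFun := fun f => { f with commutes' := hc f }
      invFun := fun g => g.toRingHom
      left_inv := fun f => by ext; rfl
      right_inv := fun g => by ext; rfl }
  rw [Nat.card_congr e, h1, ← h4, mul_comm]

theorem cnt_addHom {F : Type*} [AddCommGroup F] [Finite F] {K : Type*} [AddCommGroup K] [Finite K]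
    (hF2 : ∀ x : F, 2 • x = 0) (hK2 : ∀ x : K, 2 • x = 0) {a b : ℕ} (hF : Nat.card F = 2 ^ a)
    (hK : Nat.card K = 2 ^ b) : Nat.card (F →+ K) = 2 ^ (a * b) := by
  have : Fact (Nat.Prime 2) := ⟨Nat.prime_two⟩
  let _ : Module (ZMod 2) F := AddCommGroup.zmodModule hF2
  let _ : Module (ZMod 2) K := AddCommGroup.zmodModule hK2
  have e3 : (F →+ K) ≃ (F →ₗ[ZMod 2] K) := (AddMonoidHom.toZModLinearMapEquiv 2).toEquiv
  have h4 := Module.natCard_eq_pow_finrank (K := ZMod 2) (V := (F →ₗ[ZMod 2] K))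
  have h5 := Module.natCard_eq_pow_finrank (K := ZMod 2) (V := F)
  have h6 := Module.natCard_eq_pow_finrank (K := ZMod 2) (V := K)
  rw [Nat.card_zmod] at h4 h5 h6
  rw [hF] at h5
  rw [hK] at h6
  have h7 : a = Module.finrank (ZMod 2) F := Nat.pow_right_injective (le_refl 2) h5
  have h8 : b = Module.finrank (ZMod 2) K := Nat.pow_right_injective (le_refl 2) h6
  rw [Nat.card_congr e3, h4, Module.finrank_linearMap, ← h7, ← h8]

end counting

section count

variable {F : Type*} [Field F] [Fintype F] {q : ℕ} {D : FD F q}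

/-- unit and ring endomorphism attached to an automorphism -/
noncomputable def piOf {m : ℕ} (hq : q = 2 ^ (m + 1)) (w : F) (hw : w + D.φ w = 1)
    (α : MulAut (HQ D)) : Fˣ × (F →+* F) :=
  (Units.mk0 (aOf α w hw 1) ((ag_of_aut α w hw).ne_zero one_ne_zero),
    psiG (ag_of_aut α w hw) hw hq)

theorem piOf_b {m : ℕ} (hq : q = 2 ^ (m + 1)) (w : F) (hw : w + D.φ w = 1)
    (α : MulAut (HQ D)) (x : HQ D) :
    (α x).b = ((piOf hq w hw α).1 : F) * (piOf hq w hw α).2 x.b := by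
  show (α x).b = aOf α w hw 1 * (aOf α w hw x.b / aOf α w hw 1)
  rw [aOf_b α w hw x, mul_div_assoc',
    mul_div_cancel_left₀ _ ((ag_of_aut α w hw).ne_zero one_ne_zero)]

theorem piOf_dl {m : ℕ} (hq : q = 2 ^ (m + 1)) (w : F) (hw : w + D.φ w = 1)
    (u : Fˣ) (ψ : F →+* F) {c : MulAut (HQ D)} (hc : c ∈ CQ D) :
    piOf hq w hw (dl D u ψ * c) = (u, ψ) := by
  have ha : ∀ b, aOf (dl D u ψ * c) w hw b = u * ψ b := by
    intro b
    show (dl D u ψ (c (liftQ w hw b))).b = _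
    rw [dl_b, hc, liftQ_b]
  apply Prod.ext
  · apply Units.ext
    show aOf (dl D u ψ * c) w hw 1 = u
    rw [ha, map_one, mul_one]
  · apply RingHom.ext
    intro b
    show aOf (dl D u ψ * c) w hw b / aOf (dl D u ψ * c) w hw 1 = ψ b
    rw [ha, ha, map_one, mul_one, mul_div_cancel_left₀ _ u.ne_zero]

/-- the automorphism group as a product set -/
noncomputable def autEquiv {m : ℕ} (hq : q = 2 ^ (m + 1)) (w : F) (hw : w + D.φ w = 1) :
    MulAut (HQ D) ≃ (Fˣ × (F →+* F)) × CQ D where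
  toFun α := (piOf hq w hw α, ⟨(dl D (piOf hq w hw α).1 (piOf hq w hw α).2)⁻¹ * α, by
    intro x
    show (((dl D (piOf hq w hw α).1 (piOf hq w hw α).2)⁻¹ : MulAut (HQ D)) (α x)).b = x.b
    have h1 := MulAut.apply_inv_self (HQ D) (dl D (piOf hq w hw α).1 (piOf hq w hw α).2) (α x)
    have h2 := congrArg HQ.b h1
    rw [dl_b, piOf_b hq w hw α x] at h2
    exact (piOf hq w hw α).2.injective (mul_left_cancel₀ (Units.ne_zero _) h2)⟩)
  invFun p := dl D p.1.1 p.1.2 * p.2.1
  left_inv α := mul_inv_cancel_left _ _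
  right_inv p := by
    have h := piOf_dl hq w hw p.1.1 p.1.2 p.2.2
    apply Prod.ext
    · exact h
    · apply Subtype.ext
      show (dl D (piOf hq w hw (dl D p.1.1 p.1.2 * p.2.1)).1
        (piOf hq w hw (dl D p.1.1 p.1.2 * p.2.1)).2)⁻¹ * (dl D p.1.1 p.1.2 * p.2.1) = p.2.1
      rw [h]
      exact inv_mul_cancel_left _ _

theorem card_aut {n : ℕ} (hn : 1 ≤ n) (hF : Fintype.card F = (2 ^ n) ^ 2) (D : FD F (2 ^ n)) :
    Nat.card (CQ D) = 2 ^ (2 * n ^ 2) ∧
      Nat.card (MulAut (HQ D)) = 2 ^ (2 * n ^ 2) * (2 * n * ((2 ^ n) ^ 2 - 1)) := by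
  have hq1 : 1 < 2 ^ n := Nat.one_lt_two_pow (by omega)
  have hq : 2 ^ n = 2 ^ (n - 1 + 1) := by rw [Nat.sub_add_cancel hn]
  obtain ⟨w, hw⟩ := exists_omegaQ D hF hq1
  have hC : Nat.card (CQ D) = 2 ^ (2 * n ^ 2) := by
    rw [Nat.card_congr (cqEquiv hq w hw)]
    have hFc : Nat.card F = 2 ^ (2 * n) := by
      rw [Nat.card_eq_fintype_card, hF, ← pow_mul, mul_comm]
    have hKc : Nat.card (tauQ D).ker = 2 ^ n := (card_kerQ D hF hq1).1
    have hF2 : ∀ x : F, 2 • x = 0 := by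
      intro x
      rw [two_nsmul]
      linear_combination x * D.two
    have hK2 : ∀ x : (tauQ D).ker, 2 • x = 0 := by
      intro x
      apply Subtype.ext
      rw [two_nsmul]
      show (x : F) + x = 0
      linear_combination (x : F) * D.two
    rw [cnt_addHom hF2 hK2 hFc hKc]
    congr 1
    ring
  refine ⟨hC, ?_⟩
  rw [Nat.card_congr (autEquiv hq w hw), Nat.card_prod, Nat.card_prod, hC, Nat.card_units,
    Nat.card_eq_fintype_card, hF, cnt_ringHom hF D.two]
  ring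

theorem pow_b (α : MulAut (HQ D)) (t : F) (h : ∀ x, (α x).b = t * x.b) (j : ℕ) (x : HQ D) :
    ((α ^ j) x).b = t ^ j * x.b := by
  induction j with
  | zero =>
    rw [pow_zero, pow_zero, one_mul]
    rfl
  | succ j ih =>
    rw [pow_succ', MulAut.mul_apply, h, ih]
    ring

theorem core_scalar {n : ℕ} (hn : 1 ≤ n) (hF : Fintype.card F = (2 ^ n) ^ 2) (D : FD F (2 ^ n))
    (γ : MulAut (HQ D)) (hγ : γ ∈ pCore 2 (MulAut (HQ D))) (t : F)
    (h : ∀ x, (γ x).b = t * x.b) : t = 1 := by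
  have hq1 : 1 < 2 ^ n := Nat.one_lt_two_pow (by omega)
  obtain ⟨w, hw⟩ := exists_omegaQ D hF hq1
  have hP := Cfsg.Agent.Helper16.isPGroup_pCore 2 (MulAut (HQ D))
  obtain ⟨k, hk⟩ := hP ⟨γ, hγ⟩
  have hk' : γ ^ (2 ^ k) = 1 := by
    have h0 := congrArg Subtype.val hk
    rw [Subgroup.coe_pow, Subgroup.coe_one] at h0
    exact h0
  have h1 := pow_b γ t h (2 ^ k) (liftQ w hw 1)
  rw [hk', liftQ_b, mul_one] at h1
  have h2 : t ^ (2 ^ k) = 1 := h1.symm
  have ht0 : t ≠ 0 := by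
    rintro rfl
    rw [zero_pow (by positivity)] at h2
    exact zero_ne_one h2
  have h3 : t ^ (Fintype.card F - 1) = 1 := FiniteField.pow_card_sub_one_eq_one t ht0
  have hodd : Odd (Fintype.card F - 1) := by
    rw [hF]
    have he : Even ((2 ^ n) ^ 2) := by
      rw [← pow_mul]
      exact Nat.even_pow.mpr ⟨even_two, by omega⟩
    exact Nat.Even.sub_odd (Nat.one_le_pow _ _ (by positivity)) he odd_one
  have hcop : Nat.gcd (2 ^ k) (Fintype.card F - 1) = 1 :=
    Nat.Coprime.pow_left k (Nat.coprime_two_left.mpr hodd)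
  have h4 := pow_gcd_eq_one.mpr ⟨h2, h3⟩
  rw [hcop, pow_one] at h4
  exact h4

theorem pCore_le_CQ {n : ℕ} (hn : 1 ≤ n) (hF : Fintype.card F = (2 ^ n) ^ 2)
    (D : FD F (2 ^ n)) : pCore 2 (MulAut (HQ D)) ≤ CQ D := by
  intro α hα
  have hq1 : 1 < 2 ^ n := Nat.one_lt_two_pow (by omega)
  have hq : 2 ^ n = 2 ^ (n - 1 + 1) := by rw [Nat.sub_add_cancel hn]
  obtain ⟨w, hw⟩ := exists_omegaQ D hF hq1
  have hN := Cfsg.Agent.Helper16.pCore_normal 2 (MulAut (HQ D))
  have hb : ∀ x, (α x).b = ((piOf hq w hw α).1 : F) * (piOf hq w hw α).2 x.b :=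
    piOf_b hq w hw α
  generalize piOf hq w hw α = p at hb
  have hψ : ∀ v : F, p.2 v = v := by
    intro v
    by_cases hv : v = 0
    · rw [hv, map_zero]
    have hmv : ∀ x, (dl D (Units.mk0 v hv) (RingHom.id F) x).b = v * x.b := fun x => rfl
    have hmv' : ∀ x, ((dl D (Units.mk0 v hv) (RingHom.id F))⁻¹ x).b = v⁻¹ * x.b := by
      intro x
      have h1 := congrArg HQ.b
        (MulAut.apply_inv_self (HQ D) (dl D (Units.mk0 v hv) (RingHom.id F)) x)
      rw [hmv] at h1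
      rw [← h1]
      field_simp
    have hαi : ∀ x, (p.1 : F) * p.2 (α⁻¹ x).b = x.b := by
      intro x
      have h1 := congrArg HQ.b (MulAut.apply_inv_self (HQ D) α x)
      rw [hb] at h1
      exact h1
    have hγ : α * (dl D (Units.mk0 v hv) (RingHom.id F) * α⁻¹ *
        (dl D (Units.mk0 v hv) (RingHom.id F))⁻¹) ∈ pCore 2 (MulAut (HQ D)) :=
      Subgroup.mul_mem _ hα (hN.conj_mem _ (Subgroup.inv_mem _ hα) _)
    have hγb : ∀ x, ((α * (dl D (Units.mk0 v hv) (RingHom.id F) * α⁻¹ *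
        (dl D (Units.mk0 v hv) (RingHom.id F))⁻¹)) x).b = (p.2 v / v) * x.b := by
      intro x
      show (α (dl D (Units.mk0 v hv) (RingHom.id F)
        (α⁻¹ ((dl D (Units.mk0 v hv) (RingHom.id F))⁻¹ x)))).b = _
      rw [hb, hmv, map_mul]
      have h2 := hαi ((dl D (Units.mk0 v hv) (RingHom.id F))⁻¹ x)
      rw [hmv'] at h2
      rw [div_eq_mul_inv]
      linear_combination (p.2 v) * h2
    have h5 := core_scalar hn hF D _ hγ _ hγb
    field_simp at h5
    exact h5
  have hu : (p.1 : F) = 1 := core_scalar hn hF D α hα _ (fun x => by rw [hb, hψ])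
  intro x
  rw [hb, hψ, hu, one_mul]

theorem main_HQ {n : ℕ} (hn : 1 ≤ n) (hF : Fintype.card F = (2 ^ n) ^ 2) (D : FD F (2 ^ n)) :
    IsElementaryAbelian 2 (pCore 2 (MulAut (HQ D))) ∧
      Nat.card (pCore 2 (MulAut (HQ D))) = 2 ^ (2 * n ^ 2) ∧
      Nat.card (MulAut (HQ D)) = 2 ^ (2 * n ^ 2) * (2 * n * ((2 ^ n) ^ 2 - 1)) := by
  have hq1 : 1 < 2 ^ n := Nat.one_lt_two_pow (by omega)
  have hq : 2 ^ n = 2 ^ (n - 1 + 1) := by rw [Nat.sub_add_cancel hn]
  obtain ⟨w, hw⟩ := exists_omegaQ D hF hq1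
  have hp : IsPGroup 2 (CQ D) := by
    intro c
    refine ⟨1, ?_⟩
    rw [pow_one]
    apply Subtype.ext
    rw [Subgroup.coe_pow, Subgroup.coe_one]
    exact CQ_sq hq w hw c.2
  have hcore : pCore 2 (MulAut (HQ D)) = CQ D :=
    le_antisymm (pCore_le_CQ hn hF D) (Cfsg.Agent.Helper16.le_pCore (CQ_normal w hw) hp)
  rw [hcore]
  exact ⟨⟨⟨⟨fun a b => Subtype.ext (CQ_comm hq w hw a.2 b.2)⟩⟩, fun a ha => CQ_sq hq w hw ha⟩,
    (card_aut hn hF D).1, (card_aut hn hF D).2⟩

end count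

section final

theorem pCore_map_le {G G' : Type*} [Group G] [Group G'] [Finite G] [Finite G'] (E : G ≃* G')
    (p : ℕ) : (pCore p G).map E.toMonoidHom ≤ pCore p G' :=
  Cfsg.Agent.Helper16.le_pCore
    (Subgroup.Normal.map (Cfsg.Agent.Helper16.pCore_normal p G) _ E.surjective)
    (IsPGroup.map (Cfsg.Agent.Helper16.isPGroup_pCore p G) _)

theorem pCore_map {G G' : Type*} [Group G] [Group G'] [Finite G] [Finite G'] (E : G ≃* G')
    (p : ℕ) : (pCore p G).map E.toMonoidHom = pCore p G' := by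
  apply le_antisymm (pCore_map_le E p)
  intro x hx
  have h1 : E.symm x ∈ pCore p G := by
    apply pCore_map_le E.symm p
    exact Subgroup.mem_map_of_mem _ hx
  refine ⟨E.symm x, h1, ?_⟩
  exact E.apply_symm_apply x

theorem mainB {S : Type*} [Group S] [Finite S] (n : ℕ) (hn : 2 ≤ n)
    {F : Type*} [Field F] [Fintype F]
    (hF : Fintype.card F = 4 ^ n) (P : Sylow 2 ↥(SU 3 F (2 ^ n)))
    (hS : Nonempty (S ≃* ↥(P : Subgroup ↥(SU 3 F (2 ^ n))))) :
    IsElementaryAbelian 2 (pCore 2 (MulAut S)) ∧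
      Nat.card ↥(pCore 2 (MulAut S)) = 2 ^ (2 * n ^ 2) ∧
      Nat.card (MulAut S) = 2 ^ (2 * n ^ 2) * (2 * n * ((2 ^ n) ^ 2 - 1)) := by
  have hF' : Fintype.card F = (2 ^ n) ^ 2 := by
    rw [hF, ← pow_mul, mul_comm, pow_mul]; norm_num
  have : Fact (Nat.Prime 2) := ⟨Nat.prime_two⟩
  obtain ⟨D⟩ := exists_FD (F := F) (n := n) (by omega) hF'
  have hq1 : 1 < 2 ^ n := Nat.one_lt_two_pow (by omega)
  have hfac := Cfsg.Agent.Helper5.SU3Aut.fact_SU3 (F := F) (n := n) (by omega) hF'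
  have hrange : Nat.card (toSUq D).range = 2 ^ (Nat.card (SU 3 F (2 ^ n))).factorization 2 := by
    rw [hfac, ← Nat.card_congr
      (MonoidHom.ofInjective (Cfsg.Agent.Helper5.SU3Aut.toSUq_injective D)).toEquiv,
      card_HQ hF' hq1, ← pow_mul, mul_comm]
  let P' : Sylow 2 ↥(SU 3 F (2 ^ n)) := Sylow.ofCard (toSUq D).range hrange
  have e1 : HQ D ≃* (P' : Subgroup ↥(SU 3 F (2 ^ n))) :=
    MonoidHom.ofInjective (Cfsg.Agent.Helper5.SU3Aut.toSUq_injective D)
  have e2 : (P' : Subgroup ↥(SU 3 F (2 ^ n))) ≃* (P : Subgroup ↥(SU 3 F (2 ^ n))) :=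
    Sylow.equiv P' P
  obtain ⟨e3⟩ := hS
  let e : S ≃* HQ D := e3.trans (e1.trans e2).symm
  let E : MulAut S ≃* MulAut (HQ D) := MulAut.congr e
  obtain ⟨h1, h2, h3⟩ := main_HQ (n := n) (by omega) hF' D
  have hmap := pCore_map E 2
  have hmem : ∀ a : MulAut S, a ∈ pCore 2 (MulAut S) → E a ∈ pCore 2 (MulAut (HQ D)) := by
    intro a ha
    rw [← hmap]
    exact Subgroup.mem_map_of_mem _ ha
  refine ⟨⟨⟨⟨fun a b => ?_⟩⟩, fun a ha => ?_⟩, ?_, ?_⟩
  · apply Subtype.ext
    apply E.injective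
    rw [Subgroup.coe_mul, Subgroup.coe_mul, map_mul, map_mul]
    exact congrArg Subtype.val
      (h1.1.is_comm.comm ⟨E a.1, hmem _ a.2⟩ ⟨E b.1, hmem _ b.2⟩)
  · apply E.injective
    rw [map_pow, map_one]
    exact h1.2 _ (hmem _ ha)
  · rw [← h2, ← hmap]
    exact Nat.card_congr
      ((pCore 2 (MulAut S)).equivMapOfInjective E.toMonoidHom E.injective).toEquiv
  · rw [← h3]
    exact Nat.card_congr E.toEquiv

end final

end Cfsg.Agent.Helper5.SU3AutB
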