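import Mathlib

/-!
# Linear algebra in `K³` for the unitary group `SU₃` (helper5)

`eq_one_of_fix_two`: an isometry of determinant `1` fixing two independent isotropic vectors is `1`.
`pow_p_eq_one_of_eigen`: a matrix of determinant `1` fixing a vector `w` and a covector `c` with
`c w = 0` is unipotent.
-/

set_option autoImplicit false

namespace Cfsg.Agent.Helper5.SU3

open Matrix

variable {K : Type*} [Field K]

/-- apply a ring homomorphism entrywise -/
def sb (σ : K →+* K) (v : Fin 3 → K) : Fin 3 → K := fun i => σ (v i)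

theorem sb_cross (σ : K →+* K) (u v : Fin 3 → K) :
    sb σ (crossProduct u v) = crossProduct (sb σ u) (sb σ v) := by
  ext i
  fin_cases i <;> simp [sb, cross_apply]

theorem sb_eq_zero (σ : K →+* K) (v : Fin 3 → K) : sb σ v = 0 ↔ v = 0 := by
  constructor
  · intro h
    ext i
    have := congrFun h i
    simpa [sb] using this
  · rintro rfl
    ext i
    simp [sb]

theorem sb_smul (σ : K →+* K) (t : K) (v : Fin 3 → K) : sb σ (t • v) = σ t • sb σ v := by
  ext i
  simp [sb]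

theorem dot_sb_symm (σ : K →+* K) (hσ2 : ∀ x, σ (σ x) = x) (u v : Fin 3 → K) :
    u ⬝ᵥ sb σ v = σ (v ⬝ᵥ sb σ u) := by
  simp only [dotProduct, sb, Fin.sum_univ_three, map_add, map_mul, hσ2]
  ring

theorem cross_eq_zero_imp {u v : Fin 3 → K} (h : crossProduct u v = 0) (hv : v ≠ 0) :
    ∃ t : K, u = t • v := by
  rw [cross_apply] at h
  have h0 : u 1 * v 2 - u 2 * v 1 = 0 := by simpa using congrFun h 0
  have h1 : u 2 * v 0 - u 0 * v 2 = 0 := by simpa using congrFun h 1
  have h2 : u 0 * v 1 - u 1 * v 0 = 0 := by simpa using congrFun h 2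
  have hall : ∀ i j : Fin 3, u i * v j = u j * v i := by
    intro i j
    fin_cases i <;> fin_cases j <;> simp only [Fin.zero_eta, Fin.mk_one, Fin.reduceFinMk] <;>
      first
        | rfl
        | linear_combination h0
        | linear_combination -h0
        | linear_combination h1
        | linear_combination -h1
        | linear_combination h2
        | linear_combination -h2
  have hex : ∃ k, v k ≠ 0 := by
    by_contra hcon
    push Not at hcon
    exact hv (funext hcon)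
  obtain ⟨k, hk⟩ := hex
  refine ⟨u k / v k, ?_⟩
  ext i
  simp only [Pi.smul_apply, smul_eq_mul]
  rw [div_mul_eq_mul_div, eq_div_iff hk]
  exact hall i k

theorem cross_cross_eq (x a b : Fin 3 → K) :
    crossProduct x (crossProduct a b) = (x ⬝ᵥ b) • a - (x ⬝ᵥ a) • b := by
  ext i
  fin_cases i <;> simp [cross_apply, dotProduct, Fin.sum_univ_three] <;> ring

theorem det3_id (w c e v : Fin 3 → K) :
    det ![w, crossProduct c e, v] = (w ⬝ᵥ e) * (c ⬝ᵥ v) - (w ⬝ᵥ c) * (e ⬝ᵥ v) := by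
  rw [← triple_product_eq_det]
  simp [cross_apply, dotProduct, Fin.sum_univ_three]
  ring

/-- columns of the transpose -/
theorem mul_transpose_col (g : Matrix (Fin 3) (Fin 3) K) (B : Fin 3 → Fin 3 → K) :
    g * (Matrix.of B)ᵀ = (Matrix.of (fun j => g *ᵥ B j))ᵀ := by
  ext i j
  simp [Matrix.mul_apply, Matrix.mulVec, dotProduct]

/-- an isometry of determinant `1` fixing two independent isotropic vectors is trivial -/
theorem eq_one_of_fix_two (σ : K →+* K) (hσ2 : ∀ x, σ (σ x) = x)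
    (g : Matrix (Fin 3) (Fin 3) K)
    (hg : ∀ u v, (g *ᵥ u) ⬝ᵥ sb σ (g *ᵥ v) = u ⬝ᵥ sb σ v) (hdet : g.det = 1)
    (w w' : Fin 3 → K) (hw : w ⬝ᵥ sb σ w = 0) (hw' : w' ⬝ᵥ sb σ w' = 0)
    (hgw : g *ᵥ w = w) (hgw' : g *ᵥ w' = w') (hind : crossProduct w w' ≠ 0) : g = 1 := by
  obtain ⟨c, hc⟩ : ∃ c, c = sb σ w := ⟨_, rfl⟩
  obtain ⟨c', hc'⟩ : ∃ c', c' = sb σ w' := ⟨_, rfl⟩
  obtain ⟨d, hd⟩ : ∃ d, d = crossProduct w w' := ⟨_, rfl⟩
  obtain ⟨a, ha⟩ : ∃ a, a = w ⬝ᵥ c' := ⟨_, rfl⟩
  have ha' : w' ⬝ᵥ c = σ a := by rw [hc, ha, hc']; exact dot_sb_symm σ hσ2 w' w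
  rw [← hc] at hw
  rw [← hc'] at hw'
  rw [← hd] at hind
  obtain ⟨u, hu⟩ : ∃ u, u = crossProduct c c' := ⟨_, rfl⟩
  have hud : u = sb σ d := by rw [hu, hd, hc, hc', sb_cross]
  have hu0 : u ≠ 0 := by rw [hud]; exact fun h => hind ((sb_eq_zero σ d).mp h)
  -- step 1
  have ha0 : a ≠ 0 := by
    intro ha0
    rw [ha0] at ha ha'
    rw [map_zero] at ha'
    have h1 : crossProduct c d = 0 := by
      rw [hd, cross_cross_eq, dotProduct_comm c w', ha', dotProduct_comm c w, hw]
      simp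
    have h2 : crossProduct c' d = 0 := by
      rw [hd, cross_cross_eq, dotProduct_comm c' w', hw', dotProduct_comm c' w, ← ha]
      simp
    obtain ⟨t, ht⟩ := cross_eq_zero_imp h1 hind
    obtain ⟨t', ht'⟩ := cross_eq_zero_imp h2 hind
    apply hu0
    rw [hu, ht, ht']
    simp [cross_self]
  -- the frame
  have hdetB : det ![u, w, w'] = -(σ a * a) := by
    rw [← triple_product_eq_det, hu, ← hd, hd, cross_dot_cross, dotProduct_comm c w, hw,
      dotProduct_comm c' w', hw', dotProduct_comm c w', ha', dotProduct_comm c' w, ← ha]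
    ring
  have hdetB0 : det ![u, w, w'] ≠ 0 := by
    rw [hdetB]
    have : σ a ≠ 0 := fun h => ha0 (by rw [← hσ2 a, h, map_zero])
    exact neg_ne_zero.mpr (mul_ne_zero this ha0)
  -- step 3
  obtain ⟨γ, hγ⟩ : ∃ γ : K, g *ᵥ u = γ • u := by
    have h1 : (g *ᵥ u) ⬝ᵥ c = 0 := by
      have := hg u w
      rw [hgw, ← hc] at this
      rw [this, hu, dotProduct_comm]
      exact dot_self_cross c c'
    have h2 : (g *ᵥ u) ⬝ᵥ c' = 0 := by
      have := hg u w'
      rw [hgw', ← hc'] at this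
      rw [this, hu, dotProduct_comm]
      exact dot_cross_self c c'
    have h3 : crossProduct (g *ᵥ u) (crossProduct c c') = 0 := by
      rw [cross_cross_eq, h1, h2]
      simp
    rw [← hu] at h3
    exact cross_eq_zero_imp h3 hu0
  -- step 4
  have h4 : g * (Matrix.of ![u, w, w'])ᵀ = (Matrix.of ![γ • u, w, w'])ᵀ := by
    rw [mul_transpose_col]
    congr 2
    ext j i
    fin_cases j
    · simp [hγ]
    · simp [hgw]
    · simp [hgw']
  have h5 : det (Matrix.of ![γ • u, w, w']) = γ * det ![u, w, w'] := by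
    show det ![γ • u, w, w'] = _
    rw [← triple_product_eq_det, ← triple_product_eq_det, smul_dotProduct, smul_eq_mul]
  have h6 := congrArg det h4
  rw [det_mul, det_transpose, det_transpose, hdet, one_mul, h5] at h6
  have h7 : det (Matrix.of ![u, w, w']) = det ![u, w, w'] := rfl
  rw [h7] at h6
  have hγ1 : γ = 1 := by
    have : γ * det ![u, w, w'] = 1 * det ![u, w, w'] := by rw [one_mul]; exact h6.symm
    exact mul_right_cancel₀ hdetB0 this
  rw [hγ1, one_smul] at h4
  have hunit : IsUnit (Matrix.of ![u, w, w'])ᵀ.det := by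
    rw [det_transpose, h7]; exact isUnit_iff_ne_zero.mpr hdetB0
  calc g = g * ((Matrix.of ![u, w, w'])ᵀ * (Matrix.of ![u, w, w'])ᵀ⁻¹) := by
        rw [Matrix.mul_nonsing_inv _ hunit, mul_one]
    _ = (Matrix.of ![u, w, w'])ᵀ * (Matrix.of ![u, w, w'])ᵀ⁻¹ := by rw [← mul_assoc, h4]
    _ = 1 := Matrix.mul_nonsing_inv _ hunit

theorem strict_upper_cube (n : Matrix (Fin 3) (Fin 3) K) (h00 : n 0 0 = 0) (h10 : n 1 0 = 0)
    (h11 : n 1 1 = 0) (h20 : n 2 0 = 0) (h21 : n 2 1 = 0) (h22 : n 2 2 = 0) :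
    n * n * n = 0 := by
  ext i j
  fin_cases i <;> fin_cases j <;>
    simp [Matrix.mul_apply, Fin.sum_univ_three, h00, h10, h11, h20, h21, h22]

theorem exists_ne_zero_coord {v : Fin 3 → K} (hv : v ≠ 0) : ∃ k, v k ≠ 0 := by
  by_contra hcon
  push Not at hcon
  exact hv (funext hcon)

/-- a matrix of determinant `1` fixing a vector `w` and a covector `c` with `c w = 0` is
unipotent -/
theorem pow_p_eq_one_of_eigen {p : ℕ} [Fact p.Prime] [CharP K p] (hp3 : 3 ≤ p)
    (g : Matrix (Fin 3) (Fin 3) K) (hdet : g.det = 1) (w c : Fin 3 → K) (hw : w ≠ 0)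
    (hc : c ≠ 0) (hwc : w ⬝ᵥ c = 0) (hgw : g *ᵥ w = w) (hcg : c ᵥ* g = c) : g ^ p = 1 := by
  obtain ⟨i, hi⟩ := exists_ne_zero_coord hw
  obtain ⟨k, hk⟩ := exists_ne_zero_coord hc
  obtain ⟨v₂, hv₂⟩ : ∃ v₂, v₂ = crossProduct c (Pi.single i 1) := ⟨_, rfl⟩
  obtain ⟨A, hA⟩ : ∃ A : Matrix (Fin 3) (Fin 3) K,
      A = (Matrix.of ![w, v₂, Pi.single k 1])ᵀ := ⟨_, rfl⟩
  have hdetA : A.det = w i * c k := by
    rw [hA, det_transpose]
    show det ![w, v₂, Pi.single k 1] = _
    rw [hv₂, det3_id, hwc]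
    simp
  have hunit : IsUnit A.det := by
    rw [hdetA]; exact isUnit_iff_ne_zero.mpr (mul_ne_zero hi hk)
  have hAe0 : A *ᵥ Pi.single 0 1 = w := by
    rw [hA]
    ext j
    simp [Matrix.mulVec, dotProduct, Fin.sum_univ_three]
  have hcv₂ : c ⬝ᵥ v₂ = 0 := by rw [hv₂]; exact dot_self_cross c _
  have hcA : c ᵥ* A = c k • Pi.single 2 1 := by
    rw [hA]
    ext j
    have h0 : c 0 * w 0 + c 1 * w 1 + c 2 * w 2 = 0 := by
      have := hwc
      rw [dotProduct_comm] at this
      simpa [dotProduct, Fin.sum_univ_three] using this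
    have h1 : c 0 * v₂ 0 + c 1 * v₂ 1 + c 2 * v₂ 2 = 0 := by
      simpa [dotProduct, Fin.sum_univ_three] using hcv₂
    fin_cases j
    · simpa [Matrix.vecMul, dotProduct, Fin.sum_univ_three] using h0
    · simpa [Matrix.vecMul, dotProduct, Fin.sum_univ_three] using h1
    · simp [Matrix.vecMul, dotProduct, Fin.sum_univ_three, Pi.single_apply]
  obtain ⟨T, hT⟩ : ∃ T, T = A⁻¹ * g * A := ⟨_, rfl⟩
  have hAT : A * T = g * A := by
    rw [hT, ← mul_assoc, ← mul_assoc, Matrix.mul_nonsing_inv _ hunit, one_mul]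
  have hTe0 : T *ᵥ Pi.single 0 1 = Pi.single 0 1 := by
    rw [hT, ← Matrix.mulVec_mulVec, ← Matrix.mulVec_mulVec, hAe0, hgw, ← hAe0,
      Matrix.mulVec_mulVec, Matrix.nonsing_inv_mul _ hunit, Matrix.one_mulVec]
  have hrow : Pi.single 2 1 ᵥ* T = Pi.single 2 1 := by
    have h1 : (c ᵥ* A) ᵥ* T = c ᵥ* A := by
      rw [Matrix.vecMul_vecMul, hAT, ← Matrix.vecMul_vecMul, hcg]
    rw [hcA, Matrix.smul_vecMul] at h1
    exact smul_right_injective _ hk h1
  have T00 : T 0 0 = 1 := by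
    have := congrFun hTe0 0
    simpa [Matrix.mulVec, dotProduct, Fin.sum_univ_three] using this
  have T10 : T 1 0 = 0 := by
    have := congrFun hTe0 1
    simpa [Matrix.mulVec, dotProduct, Fin.sum_univ_three] using this
  have T20 : T 2 0 = 0 := by
    have := congrFun hTe0 2
    simpa [Matrix.mulVec, dotProduct, Fin.sum_univ_three] using this
  have T21 : T 2 1 = 0 := by
    have := congrFun hrow 1
    simpa [Matrix.vecMul, dotProduct, Fin.sum_univ_three] using this
  have T22 : T 2 2 = 1 := by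
    have := congrFun hrow 2
    simpa [Matrix.vecMul, dotProduct, Fin.sum_univ_three] using this
  have hdetT : T.det = 1 := by
    rw [hT, Matrix.det_conj' ((Matrix.isUnit_iff_isUnit_det A).mpr hunit), hdet]
  have T11 : T 1 1 = 1 := by
    rw [Matrix.det_fin_three] at hdetT
    simpa [T00, T10, T20, T21, T22] using hdetT
  have hn := strict_upper_cube (T - 1) (by simp [T00]) (by simp [T10]) (by simp [T11])
    (by simp [T20]) (by simp [T21]) (by simp [T22])
  have hg : g = A * T * A⁻¹ := by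
    rw [hAT, mul_assoc, Matrix.mul_nonsing_inv _ hunit, mul_one]
  obtain ⟨M, hM⟩ : ∃ M, M = g - 1 := ⟨_, rfl⟩
  have hM' : M = A * (T - 1) * A⁻¹ := by
    rw [hM, mul_sub, sub_mul, mul_one, Matrix.mul_nonsing_inv _ hunit, ← hg]
  have hM3 : M * M * M = 0 := by
    rw [hM']
    have e : A * (T - 1) * A⁻¹ * (A * (T - 1) * A⁻¹) * (A * (T - 1) * A⁻¹) =
        A * ((T - 1) * (T - 1) * (T - 1)) * A⁻¹ := by
      simp only [Matrix.mul_assoc]
      rw [Matrix.nonsing_inv_mul_cancel_left _ _ hunit, Matrix.nonsing_inv_mul_cancel_left _ _ hunit]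
    rw [e, hn, mul_zero, zero_mul]
  have hMp : M ^ p = 0 := by
    have hp' : p = 3 + (p - 3) := by omega
    rw [hp', pow_add, pow_three', hM3, zero_mul]
  have hg1 : g = 1 + M := by rw [hM]; abel
  rw [hg1, add_pow_char_of_commute p (Commute.one_left M), one_pow, hMp, add_zero]

end Cfsg.Agent.Helper5.SU3
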